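import Cfsg.Agent.OddHalf.Small.G23
import Cfsg.Agent.S4208

/-!
# S3372: centralizers of involutions of `G₂(3)`
-/

set_option autoImplicit false
set_option linter.unusedSectionVars false
set_option linter.unusedVariables false

namespace Cfsg.Agent.H351.OE.GTwoT

open Subgroup

theorem not_dvd_aut {P : Type*} [Group P] [Finite P] (hP : IsPGroup 2 P) (h32 : Nat.card P ≤ 32) :
    ¬ 27 ∣ Nat.card (MulAut P) := by
  have h2 : Fact (Nat.Prime 2) := ⟨Nat.prime_two⟩
  obtain ⟨n, hn⟩ := IsPGroup.iff_card.1 hP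
  have hn5 : n ≤ 5 := by
    rw [hn] at h32
    exact (Nat.pow_le_pow_iff_right (by norm_num : 1 < 2)).1 (h32.trans (by norm_num))
  have hi : (frattini P).index ∣ 2 ^ n := by rw [← hn]; exact Subgroup.index_dvd_card _
  obtain ⟨r, hr, hr2⟩ := (Nat.dvd_prime_pow Nat.prime_two).1 hi
  intro h
  have h3 := h.trans (Cfsg.Agent.S4208.result hn hr2)
  have h4 := (Nat.Coprime.pow_right (r * (n - r)) (show Nat.Coprime 27 2 by norm_num)).dvd_of_dvd_mul_left h3
  have hr5 : r < 6 := by omega
  have key : ∀ r < 6, ¬ 27 ∣ ∏ i ∈ Finset.range r, (2 ^ r - 2 ^ i) := by decide +kernel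
  exact key r hr5 h4

theorem not_dvd_of {X : Type*} [Group X] [Finite X] (t : X) (Q : Subgroup X) (hQ : IsPGroup 2 Q)
    (h32 : Nat.card Q ≤ 32) (hn : ∀ g, g * t = t * g → ∀ x ∈ Q, g * x * g⁻¹ ∈ Q)
    (hf : ∀ y, y * t = t * y → (∀ x ∈ Q, y * x = x * y) → Odd (orderOf y) → y = 1) :
    ¬ 27 ∣ Nat.card (centralizer ({t} : Set X)) := by
  intro h27
  have hp3 : Fact (Nat.Prime 3) := ⟨Nat.prime_three⟩
  obtain ⟨P, hP⟩ := Sylow.exists_subgroup_card_pow_prime (G := centralizer ({t} : Set X)) 3 (n := 3) h27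
  have hN : centralizer ({t} : Set X) ≤ normalizer (Q : Set X) := by
    intro g hg
    have hg' := mem_centralizer_singleton_iff.1 hg
    rw [mem_normalizer_iff]
    intro x
    refine ⟨hn g hg' x, fun hx => ?_⟩
    have h1 := hn g⁻¹ (by
      exact ((show Commute g t from hg').inv_left).eq) _ hx
    have e : g⁻¹ * (g * x * g⁻¹) * g⁻¹⁻¹ = x := by group
    rwa [e] at h1
  let φ : P →* MulAut Q := (Q.normalizerMonoidHom).comp ((Subgroup.inclusion hN).comp P.subtype)
  have hφ : Function.Injective φ := by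
    rw [injective_iff_map_eq_one]
    intro p hp
    have h1 : ∀ x ∈ Q, ((p : centralizer ({t} : Set X)) : X) * x = x * p := by
      intro x hx
      have h2 := congrArg (fun f : MulAut Q => ((f ⟨x, hx⟩ : Q) : X)) hp
      have h3 : ((p : centralizer ({t} : Set X)) : X) * x * ((p : centralizer ({t} : Set X)) : X)⁻¹ = x := h2
      rwa [mul_inv_eq_iff_eq_mul] at h3
    have h2 : Odd (orderOf ((p : centralizer ({t} : Set X)) : X)) := by
      rw [Subgroup.orderOf_coe, Subgroup.orderOf_coe]
      have h3 : orderOf p ∣ 3 ^ 3 := by rw [← hP]; exact orderOf_dvd_natCard p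
      exact Odd.of_dvd_nat (by decide) h3
    have h3 := hf _ (mem_centralizer_singleton_iff.1 p.1.2) h1 h2
    exact Subtype.ext (Subtype.ext h3)
  have hfin : Finite (MulAut Q) := by
    apply Finite.of_injective (fun φ : MulAut Q => (φ : Q → Q))
    intro a b hab
    exact MulEquiv.ext (congrFun hab)
  have h5 := Subgroup.card_dvd_of_injective φ hφ
  rw [hP] at h5
  exact not_dvd_aut hQ h32 h5

end Cfsg.Agent.H351.OE.GTwoT

namespace Cfsg.Agent.H351.OE.GTwoT

open Cfsg Cfsg.Lie Cfsg.Agent.OddHalf.Small.G23 Cfsg.Agent.OddHalf.Small.G23Data Cfsg.Agent.OddHalf.Small.G23Check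
open Cfsg.Agent.GTwoThree.Model
open Cfsg.Agent.ChevalleyStructure Cfsg.Agent.ChevalleyStructure.Elts

theorem not_dvd_z : ¬ 27 ∣ Nat.card (Subgroup.centralizer ({z} : Set ↥Gp)) := by
  have h32 : Nat.card (PS 4) ≤ 32 := by
    have : Nat.card (PS 4) ≤ Nat.card (Fin 32) := by
      have hch : ∀ x : PS 4, ∃ i : Fin 32, (x : ↥Gp) = pe i := by
        intro x
        obtain ⟨i, hi, e⟩ := exists_Q x.2
        exact ⟨⟨i, hi⟩, e⟩
      choose f hf using hch
      refine Nat.card_le_card_of_injective f ?_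
      intro a b hab
      apply Subtype.ext
      rw [hf a, hf b, hab]
    simpa using this
  refine not_dvd_of z (PS 4) isPGroup_Q h32 ?_ ?_
  · intro g hg
    obtain ⟨a, d, i, hi, a', d', -, -, rfl, -⟩ := cent hg
    exact norm_mul (norm_mul (norm_pos a d) (norm_NL hi)) (norm_pos a' d')
  · intro g hg hgQ hodd
    obtain ⟨a, d, i, hi, a', d', a'', d'', rfl, e⟩ := cent hg
    set u := ev y (wx 6 a.val ++ wx 9 d.val) with hu
    set n := ev y (NL.getD i []) with hn
    set v := ev y (wx 6 a'.val ++ wx 9 d'.val) with hv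
    have e1 : u⁻¹ * (u * n * v) * u = ev y (NL.getD i [] ++ (wx 6 a''.val ++ wx 9 d''.val)) := by
      rw [ev_append, ← e, ← hn]
      group
    have hodd' : Odd (orderOf (u⁻¹ * (u * n * v) * u)) := by
      have e2 : u⁻¹ * (u * n * v) * u = MulAut.conj u⁻¹ (u * n * v) := by
        show _ = u⁻¹ * (u * n * v) * u⁻¹⁻¹
        rw [inv_inv]
      rw [e2, MulEquiv.orderOf_eq]
      exact hodd
    have hcomm : ∀ k < 4, (u⁻¹ * (u * n * v) * u) * ev y (PG.getD k []) =
        ev y (PG.getD k []) * (u⁻¹ * (u * n * v) * u) := by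
      intro k hk
      have h1 : ev y (PG.getD k []) ∈ PS 4 := Subgroup.subset_closure ⟨k, hk, rfl⟩
      have h2 := hgQ _ (norm_pos a d _ h1)
      rw [← hu] at h2
      calc (u⁻¹ * (u * n * v) * u) * ev y (PG.getD k [])
          = u⁻¹ * (u * n * v * (u * ev y (PG.getD k []) * u⁻¹)) * u := by group
        _ = u⁻¹ * (u * ev y (PG.getD k []) * u⁻¹ * (u * n * v)) * u := by rw [h2]
        _ = _ := by group
    have h1 : u⁻¹ * (u * n * v) * u = 1 := by
      rw [e1] at hcomm hodd' ⊢
      rcases C_check i hi a''.val a''.2 d''.val d''.2 with ⟨k, hk, h⟩ | h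
      · refine absurd ?_ (ne_of_nec h)
        rw [ev_append, ev_append y (PG.getD k [])]
        exact hcomm k hk
      · have h2 := eq_of_eqc h
        rw [ev_append, ev_nil] at h2
        have h3 : orderOf (ev y (NL.getD i [] ++ (wx 6 a''.val ++ wx 9 d''.val))) ∣ 2 :=
          orderOf_dvd_of_pow_eq_one (by rw [pow_two]; exact h2)
        rcases (Nat.dvd_prime Nat.prime_two).mp h3 with h4 | h4
        · exact orderOf_eq_one_iff.mp h4
        · rw [h4] at hodd'
          exact absurd hodd' (by decide)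
    have h2 : u * n * v = u * (u⁻¹ * (u * n * v) * u) * u⁻¹ := by group
    rw [h2, h1, mul_one, mul_inv_cancel]

theorem card_cent_equiv {X Y : Type*} [Group X] [Group Y] (e : X ≃* Y) (x : X) :
    Nat.card (Subgroup.centralizer ({e x} : Set Y)) = Nat.card (Subgroup.centralizer ({x} : Set X)) := by
  refine (Nat.card_congr ?_).symm
  refine
    { toFun := fun c => ⟨e c.1, ?_⟩
      invFun := fun c => ⟨e.symm c.1, ?_⟩
      left_inv := fun c => by simp
      right_inv := fun c => by simp }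
  · rw [Subgroup.mem_centralizer_singleton_iff]
    have := Subgroup.mem_centralizer_singleton_iff.mp c.2
    rw [← map_mul, this, map_mul]
  · rw [Subgroup.mem_centralizer_singleton_iff]
    have := Subgroup.mem_centralizer_singleton_iff.mp c.2
    apply e.injective
    rw [map_mul, map_mul, e.apply_symm_apply, this]

/-- no involution has a centralizer of order divisible by 27 -/
def NoT (X : Type*) [Group X] : Prop :=
  ∀ t : X, orderOf t = 2 → ¬ 27 ∣ Nat.card (Subgroup.centralizer ({t} : Set X))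

theorem NoT.equiv {X Y : Type*} [Group X] [Group Y] (h : NoT X) (e : X ≃* Y) : NoT Y := by
  intro t ht
  have h5 := card_cent_equiv e.symm t
  rw [← h5]
  exact h _ (by rw [MulEquiv.orderOf_eq, ht])

theorem NoT.of_conj {X : Type*} [Group X] {z : X} (hz : ¬ 27 ∣ Nat.card (Subgroup.centralizer ({z} : Set X)))
    (h : ∀ t : X, orderOf t = 2 → ∃ c : X, c * t * c⁻¹ = z) : NoT X := by
  intro t ht
  obtain ⟨c, hc⟩ := h t ht
  have h4 := card_cent_equiv (MulAut.conj c) t
  rw [MulAut.conj_apply, hc] at h4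
  rw [← h4]
  exact hz

theorem noT_Gp : NoT ↥Gp := NoT.of_conj not_dvd_z (fun t ht => exists_conj ht)

theorem noT_G23 (F : Type) [Field F] [Fintype F] (hF : Fintype.card F = 3) : NoT ↥(chevG2.group F) := by
  have h3 : Fintype.card (ZMod 3) = Fintype.card F := by rw [hF]; rfl
  let φ : ZMod 3 ≃+* F := FiniteField.ringEquivOfCardEq h3
  exact noT_Gp.equiv (FieldIso.groupEquiv chevG2 φ)

end Cfsg.Agent.H351.OE.GTwoT
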