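import Cfsg.Agent.H351.OE.CharT
import Cfsg.Agent.H351.OE.GTwoT
import Cfsg.Agent.H261.ExcThreeE78
import Cfsg.Agent.H261.ExcThreeTw
import Cfsg.Agent.H343.WitExc
import Cfsg.Agent.ETable.ExcTorus

/-!
# S3372: exceptional groups
-/

set_option autoImplicit false
set_option linter.unusedSectionVars false
set_option linter.unusedVariables false

namespace Cfsg.Agent.H351.OE

open Subgroup Cfsg Cfsg.Lie H343 Cfsg.Agent.OrdDiv H261

theorem E3.exists_three {X : Type*} [Group X] (h : E3 X) :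
    ∃ d : X, d ^ 3 = 1 ∧ Nat.card (centralizer ({d} : Set X)) ∣ N0 := by
  have := h.fin
  obtain ⟨d, -, hd, hc⟩ := h.c27 ⊤ (by
    rw [Subgroup.card_top]
    exact (show 27 ∣ 3 ^ 5 by decide).trans h.d5)
  exact ⟨d, by rw [← hd, pow_orderOf_eq_one], hc⟩

theorem dvd_sixteen {r n k : ℕ} (hr : r.Prime) (hr3 : r ≠ 3) (h : (r ^ n) ^ k ∣ N0) : (r ^ n) ^ k ∣ 16 := by
  have h1 : ((r ^ n) ^ k).Coprime (3 ^ 6) := by
    apply Nat.Coprime.pow_left; apply Nat.Coprime.pow_left; apply Nat.Coprime.pow_right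
    exact (Nat.coprime_primes hr Nat.prime_three).2 hr3
  have h2 : N0 = 16 * 3 ^ 6 := by decide
  rw [h2] at h
  exact h1.dvd_of_dvd_mul_right h

theorem not_big {q k : ℕ} (hq : 2 ≤ q) (hk : 5 ≤ k) (h : q ^ k ∣ 16) : False := by
  have h1 := Nat.le_of_dvd (by norm_num) h
  have h2 : 2 ^ 5 ≤ q ^ k := (Nat.pow_le_pow_right (by norm_num) hk).trans (Nat.pow_le_pow_left hq k)
  omega

section Fam

variable {F : Type} [Field F] [Fintype F]

/-- characteristic -/
theorem exists_char (F : Type) [Field F] [Fintype F] :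
    ∃ (r n : ℕ), r.Prime ∧ 0 < n ∧ CharP F r ∧ Fintype.card F = r ^ n := by
  obtain ⟨r, hr⟩ := CharP.exists F
  obtain ⟨l, hrp, hl⟩ := FiniteField.card F r
  exact ⟨r, l, hrp, l.pos, hr, hl⟩

theorem exc_kill (D : ChevalleyDatum) {k : ℕ} (hk : 5 ≤ k)
    (hD : ∀ (F : Type) [Field F] [Finite F] {r : ℕ} [Fact r.Prime] [CharP F r] (hr3 : r ≠ 3) (z : ↥(D.group F))
      (hz : z ^ 3 = 1), Nat.card F ^ k ∣ Nat.card ↥(Subgroup.centralizer {z}))
    (h3 : 3 ∣ Fintype.card F → 3 ^ 7 ∣ Nat.card (D.group F)) (h : E3 (D.group F)) : False := by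
  by_cases hF : 3 ∣ Fintype.card F
  · exact h.n7 (h3 hF)
  obtain ⟨r, n, hr, hn, hc, hcard⟩ := exists_char F
  have : Fact r.Prime := ⟨hr⟩
  have hr3 : r ≠ 3 := by
    rintro rfl
    exact hF (hcard ▸ dvd_pow_self 3 hn.ne')
  obtain ⟨d, hd, hdc⟩ := h.exists_three
  have h1 := (hD F hr3 d hd).trans hdc
  rw [Nat.card_eq_fintype_card, hcard] at h1
  have h2 := dvd_sixteen hr hr3 h1
  have h4 : 2 ≤ r ^ n := by
    rw [← hcard]; exact Fintype.one_lt_card
  exact not_big h4 hk h2

theorem big_pow {q k : ℕ} (h : 3 ∣ q) (hk : 7 ≤ k) : 3 ^ 7 ∣ q ^ k :=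
  (pow_dvd_pow 3 hk).trans (pow_dvd_pow_of_dvd h k)

theorem elim_f4 (T : OrderTable.{0}) (h : E3 (chevF4.group F)) : False := by
  refine exc_kill chevF4 (k := 6) (by norm_num) (fun F _ _ r _ _ hr3 z hz => pow_dvd_F4 F hr3 z hz) ?_ h
  intro h3
  rw [T.f4 F _ rfl]
  exact ((((big_pow h3 (by norm_num)).mul_right _).mul_right _).mul_right _).mul_right _

theorem elim_e6 (T : OrderTable.{0}) (h : E3 (chevE6.group F)) : False := by
  refine exc_kill chevE6 (k := 9) (by norm_num) (fun F _ _ r _ _ hr3 z hz => pow_dvd_E6 F hr3 z hz) ?_ h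
  intro h3
  have h1 := T.e6 F _ rfl
  have h2 : 3 ^ 8 ∣ Nat.gcd 3 (Fintype.card F - 1) * Nat.card (chevE6.group F) := by
    rw [h1]
    exact (((((((pow_dvd_pow 3 (by norm_num)).trans (pow_dvd_pow_of_dvd h3 36)).mul_right _).mul_right _).mul_right
      _).mul_right _).mul_right _).mul_right _
  have h4 : 3 ^ 8 ∣ 3 * Nat.card (chevE6.group F) :=
    h2.trans (Nat.mul_dvd_mul_right (Nat.gcd_dvd_left _ _) _)
  rw [pow_succ, mul_comm _ 3] at h4
  exact Nat.dvd_of_mul_dvd_mul_left (by norm_num) h4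

theorem elim_e7 (T : OrderTable.{0}) (h : E3 (chevE7.group F)) : False := by
  refine exc_kill chevE7 (k := 18) (by norm_num) (fun F _ _ r _ _ hr3 z hz => pow_dvd_E7 F hr3 z hz) ?_ h
  intro h3
  have h1 := T.e7 F _ rfl
  have h2 : 3 ^ 7 ∣ Nat.gcd 2 (Fintype.card F - 1) * Nat.card (chevE7.group F) := by
    rw [h1]
    exact (((((((big_pow h3 (by norm_num)).mul_right _).mul_right _).mul_right
      _).mul_right _).mul_right _).mul_right _).mul_right _
  have h4 : 3 ^ 7 ∣ 2 * Nat.card (chevE7.group F) :=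
    h2.trans (Nat.mul_dvd_mul_right (Nat.gcd_dvd_left _ _) _)
  exact Nat.Coprime.dvd_of_dvd_mul_left (by norm_num) h4

theorem elim_e8 (T : OrderTable.{0}) (h : E3 (chevE8.group F)) : False := by
  refine exc_kill chevE8 (k := 18) (by norm_num) (fun F _ _ r _ _ hr3 z hz => pow_dvd_E8 F hr3 z hz) ?_ h
  intro h3
  rw [T.e8 F _ rfl]
  exact ((((((((big_pow h3 (by norm_num)).mul_right _).mul_right _).mul_right
      _).mul_right _).mul_right _).mul_right _).mul_right _).mul_right _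

theorem elim_te6 (T : OrderTable.{0}) {q : ℕ} (hq : IsPrimePow q) (hF : Fintype.card F = q ^ 2)
    (h : E3 (twistedE6 F q)) : False := by
  obtain ⟨r, n, hr, hn, hqr⟩ := (isPrimePow_nat_iff _).mp hq
  have : Fact r.Prime := ⟨hr⟩
  by_cases h3 : 3 ∣ q
  · have h1 := T.te6 F q hq hF
    have h2 : 3 ^ 8 ∣ Nat.gcd 3 (q + 1) * Nat.card (twistedE6 F q) := by
      rw [h1]
      exact (((((((pow_dvd_pow 3 (by norm_num)).trans (pow_dvd_pow_of_dvd h3 36)).mul_right _).mul_right _).mul_right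
        _).mul_right _).mul_right _).mul_right _
    have h4 : 3 ^ 8 ∣ 3 * Nat.card (twistedE6 F q) :=
      h2.trans (Nat.mul_dvd_mul_right (Nat.gcd_dvd_left _ _) _)
    rw [pow_succ, mul_comm _ 3] at h4
    exact h.n7 (Nat.dvd_of_mul_dvd_mul_left (by norm_num) h4)
  · have hr3 : r ≠ 3 := by
      rintro rfl
      exact h3 (hqr ▸ dvd_pow_self 3 hn.ne')
    have hc : CharP F r := by
      obtain ⟨r', n', hr', hn', hc', hcard⟩ := exists_char F
      have h1 : r ∣ r' ^ n' := by
        rw [← hcard, hF, ← hqr]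
        exact dvd_pow (dvd_pow_self _ hn.ne') (by norm_num)
      have h2 := (Nat.prime_dvd_prime_iff_eq hr hr').mp (hr.dvd_of_dvd_pow h1)
      subst h2; exact hc'
    obtain ⟨d, hd, hdc⟩ := h.exists_three
    have h1 := (H261.Tw.pow_dvd_twE6 F hr3 hn hqr.symm hF d hd).trans hdc
    rw [← hqr] at h1
    have h2 := dvd_sixteen hr hr3 h1
    have h4 : 2 ≤ r ^ n := by
      rw [hqr]; exact hq.one_lt
    exact not_big h4 (by norm_num) h2

theorem elim_td4 (T : OrderTable.{0}) {q : ℕ} (hq : IsPrimePow q) (hF : Fintype.card F = q ^ 3)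
    (h : E3 (twistedD4 F q)) : False := by
  obtain ⟨r, n, hr, hn, hqr⟩ := (isPrimePow_nat_iff _).mp hq
  have : Fact r.Prime := ⟨hr⟩
  by_cases h3 : 3 ∣ q
  · apply h.n7
    rw [T.td4 F q hq hF]
    exact (((big_pow h3 (by norm_num)).mul_right _).mul_right _).mul_right _
  · have hr3 : r ≠ 3 := by
      rintro rfl
      exact h3 (hqr ▸ dvd_pow_self 3 hn.ne')
    have hc : CharP F r := by
      obtain ⟨r', n', hr', hn', hc', hcard⟩ := exists_char F
      have h1 : r ∣ r' ^ n' := by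
        rw [← hcard, hF, ← hqr]
        exact dvd_pow (dvd_pow_self _ hn.ne') (by norm_num)
      have h2 := (Nat.prime_dvd_prime_iff_eq hr hr').mp (hr.dvd_of_dvd_pow h1)
      subst h2; exact hc'
    obtain ⟨d, hd, hdc⟩ := h.exists_three
    have h1 := (H261.Tw.pow_dvd_twD4 F hr3 hn hqr.symm hF d hd).trans hdc
    rw [← hqr] at h1
    have h2 := dvd_sixteen hr hr3 h1
    rw [hqr] at h2
    have hq2 : q = 2 := by
      have h4 := hq.one_lt
      by_contra hne
      have h5 := Nat.le_of_dvd (by norm_num) h2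
      have h6 : 3 ^ 3 ≤ q ^ 3 := Nat.pow_le_pow_left (by omega) 3
      omega
    have h5 := h.d5
    rw [T.td4 F q hq hF, hq2] at h5
    revert h5
    decide +kernel

theorem elim_g2 (T : OrderTable.{0}) (hF2 : 2 < Fintype.card F) (h : E3 (chevG2.group F)) : False := by
  obtain ⟨r, n, hr, hn, hc, hcard⟩ := exists_char F
  have : Fact r.Prime := ⟨hr⟩
  have h1 := T.g2 F
  by_cases h3 : 3 ∣ Fintype.card F
  · have hp3 : r = 3 := by
      rw [hcard] at h3
      exact ((Nat.prime_dvd_prime_iff_eq Nat.prime_three hr).mp (Nat.prime_three.dvd_of_dvd_pow h3)).symm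
    subst hp3
    rcases Nat.lt_or_ge n 2 with hk2 | hk2
    · have : n = 1 := by omega
      subst this
      rw [pow_one] at hcard
      refine h.noT (GTwoT.noT_G23 F hcard) ?_
      rw [h1, hcard]
      decide
    · apply h.n7
      rw [h1, hcard, ← pow_mul, mul_assoc]
      exact (pow_dvd_pow 3 (by omega)).mul_right _
  · have hr3 : r ≠ 3 := by
      rintro rfl
      exact h3 (hcard ▸ dvd_pow_self 3 hn.ne')
    obtain ⟨d, hd, hdc⟩ := h.exists_three
    have h2 := (pow_dvd_G2 F hr3 d hd).trans hdc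
    rw [Nat.card_eq_fintype_card, hcard, ← pow_one (r ^ n)] at h2
    have h4 := dvd_sixteen hr hr3 h2
    rw [pow_one, ← hcard] at h4
    have h5 := h.d5
    rw [h1] at h5
    have key : ∀ q < 17, 2 < q → q ∣ 16 → 3 ^ 5 ∣ q ^ 6 * (q ^ 2 - 1) * (q ^ 6 - 1) → q = 8 := by decide +kernel
    have h6 := key _ (by have := Nat.le_of_dvd (by norm_num) h4; omega) hF2 h4 h5
    -- `G2(8)`
    have hs : ETable.Exc.SO chevG2 7 11 := by decide +kernel
    have hlt7 : 7 < chevG2.nroots := by decide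
    have hlt11 : 11 < chevG2.nroots := by decide
    have r7 := rootIn_group F ETable.Exc.inList_G2 hlt7
    have r11 := rootIn_group F ETable.Exc.inList_G2 hlt11
    obtain ⟨a, s, K, ha, -⟩ := ClassicalGeometry.NonsplitTorus.exists_torus (F := F)
    rw [h6] at ha
    have hinj : Function.Injective r7.hom := by
      rw [injective_iff_map_eq_one]
      intro g hg
      rcases r7.ker hg with h7 | h7
      · exact h7
      · have h2F : (2 : F) = 0 := by
          have h8 : ((Fintype.card F : ℕ) : F) = 0 := FiniteField.cast_card_eq_zero F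
          rw [h6] at h8
          have h9 : (2 : F) ^ 3 = 0 := by
            have : ((8 : ℕ) : F) = (2 : F) ^ 3 := by norm_num
            rw [← this, h8]
          exact pow_eq_zero_iff (n := 3) (by norm_num) |>.1 h9
        have h10 : (-1 : F) = 1 := by linear_combination -h2F
        rw [h7]
        apply Subtype.ext
        ext i j
        fin_cases i <;> fin_cases j <;> simp [h10]
    have ho : orderOf (r7.hom a) = 9 := by rw [orderOf_injective _ hinj, ha]
    have h7 := h.c9 _ ho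
    have h8 := card_dvd_two_mul r11.hom (fun _ => r11.ker) (r7.hom a) (r7.comm r11 hs a)
    rw [card_SL_two rfl, h6] at h8
    have h9 := h8.trans (Nat.mul_dvd_mul_left 2 h7)
    revert h9
    decide

end Fam

end Cfsg.Agent.H351.OE
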