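import Mathlib

/-!
# S3372: centralizers of involutions of `PSL₄(3)`
-/

set_option autoImplicit false
set_option linter.unusedSectionVars false
set_option linter.unusedVariables false

namespace Cfsg.Agent.H351.OE.LFour

open Subgroup Matrix

/-- lifting a power of three in the centralizer modulo a central subgroup of order prime to three -/
theorem lift_dvd {Γ X : Type*} [Group Γ] [Finite Γ] [Group X] (f : Γ →* X) (hf : Function.Surjective f)
    (hk : f.ker ≤ center Γ) (h3 : ¬ 3 ∣ Nat.card f.ker) (T : Γ)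
    (h27 : 27 ∣ Nat.card (centralizer ({f T} : Set X))) : 27 ∣ Nat.card (centralizer ({T} : Set Γ)) := by
  let M : Subgroup Γ := (centralizer ({f T} : Set X)).comap f
  have hM : ∀ m : M, f (m : Γ) * f T = f T * f m := fun m => mem_centralizer_singleton_iff.1 m.2
  let ψ : M →* f.ker :=
    { toFun := fun m => ⟨m * T * (m : Γ)⁻¹ * T⁻¹, by
        rw [MonoidHom.mem_ker]
        simp only [map_mul, map_inv]
        rw [hM m]; group⟩
      map_one' := by
        apply Subtype.ext
        simp
      map_mul' := by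
        intro a b
        apply Subtype.ext
        change (a * b : Γ) * T * (a * b : Γ)⁻¹ * T⁻¹ = (a * T * (a : Γ)⁻¹ * T⁻¹) * (b * T * (b : Γ)⁻¹ * T⁻¹)
        have hb : (b * T * (b : Γ)⁻¹ * T⁻¹ : Γ) ∈ center Γ := hk (by
          rw [MonoidHom.mem_ker]
          simp only [map_mul, map_inv]
          rw [hM b]; group)
        have h1 := mem_center_iff.1 hb
        calc (a * b : Γ) * T * (a * b : Γ)⁻¹ * T⁻¹
            = a * (b * T * (b : Γ)⁻¹ * T⁻¹) * T * (a : Γ)⁻¹ * T⁻¹ := by group
          _ = (b * T * (b : Γ)⁻¹ * T⁻¹) * (a * T * (a : Γ)⁻¹ * T⁻¹) := by rw [h1]; group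
          _ = _ := (h1 _).symm }
  have hc : 27 ∣ Nat.card M := by
    refine h27.trans ?_
    let g : M →* centralizer ({f T} : Set X) :=
      { toFun := fun m => ⟨f m, m.2⟩
        map_one' := Subtype.ext (map_one f)
        map_mul' := fun a b => Subtype.ext (map_mul f _ _) }
    apply Subgroup.card_dvd_of_surjective g
    rintro ⟨y, hy⟩
    obtain ⟨x, rfl⟩ := hf y
    exact ⟨⟨x, hy⟩, rfl⟩
  have h1 := Subgroup.card_mul_index ψ.ker
  rw [Subgroup.index_ker] at h1
  have h2 : Nat.Coprime 27 (Nat.card ψ.range) := by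
    have h4 : ¬ 3 ∣ Nat.card ψ.range := fun h => h3 (h.trans (Subgroup.card_subgroup_dvd_card _))
    exact Nat.Coprime.pow_left 3 ((Nat.Prime.coprime_iff_not_dvd Nat.prime_three).2 h4)
  rw [← h1] at hc
  refine (h2.dvd_of_dvd_mul_right hc).trans ?_
  have h5 : (ψ.ker.map M.subtype) ≤ centralizer ({T} : Set Γ) := by
    rintro _ ⟨m, hm, rfl⟩
    rw [mem_centralizer_singleton_iff]
    have h6 : (m : Γ) * T * (m : Γ)⁻¹ * T⁻¹ = 1 := congrArg Subtype.val (MonoidHom.mem_ker.1 hm)
    rw [mul_inv_eq_one, mul_inv_eq_iff_eq_mul] at h6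
    exact h6
  have h7 := Subgroup.card_dvd_of_le h5
  rwa [Subgroup.card_map_of_injective M.subtype_injective] at h7

variable {F : Type*} [Field F] [Fintype F]

section B

/-- the case of an involution -/
theorem card_dvd_of_sq (h2 : (2 : F) ≠ 0) {T : SpecialLinearGroup (Fin 4) F} (hT : T.1 * T.1 = 1) (h1 : T.1 ≠ 1)
    (h1' : T.1 ≠ -1) : Nat.card (centralizer ({T} : Set (SpecialLinearGroup (Fin 4) F))) ∣
      Nat.card (GL (Fin 2) F) * Nat.card (GL (Fin 2) F) := by
  obtain ⟨τ, hτ⟩ : ∃ τ : (Fin 4 → F) →ₗ[F] (Fin 4 → F), τ = Matrix.toLin' T.1 := ⟨_, rfl⟩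
  have hττ : ∀ v, τ (τ v) = v := by
    intro v
    rw [hτ, Matrix.toLin'_apply, Matrix.toLin'_apply, Matrix.mulVec_mulVec, hT, Matrix.one_mulVec]
  let E : Submodule F (Fin 4 → F) := LinearMap.ker (τ - LinearMap.id)
  let E' : Submodule F (Fin 4 → F) := LinearMap.ker (τ + LinearMap.id)
  have hE : ∀ v, v ∈ E ↔ τ v = v := by
    intro v
    rw [LinearMap.mem_ker, LinearMap.sub_apply, LinearMap.id_apply, sub_eq_zero]
  have hE' : ∀ v, v ∈ E' ↔ τ v = -v := by
    intro v
    rw [LinearMap.mem_ker, LinearMap.add_apply, LinearMap.id_apply, add_eq_zero_iff_eq_neg]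
  have hcompl : IsCompl E E' := by
    constructor
    · rw [Submodule.disjoint_def]
      intro v hv hv'
      rw [hE] at hv
      rw [hE', hv] at hv'
      have h3 : (2 : F) • v = 0 := by
        rw [two_smul]
        nth_rw 1 [hv']
        exact neg_add_cancel v
      exact (smul_eq_zero.1 h3).resolve_left h2
    · rw [codisjoint_iff, eq_top_iff]
      intro v _
      rw [Submodule.mem_sup]
      refine ⟨(2 : F)⁻¹ • (v + τ v), ?_, (2 : F)⁻¹ • (v - τ v), ?_, ?_⟩
      · rw [hE, map_smul, map_add, hττ, add_comm]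
      · rw [hE', map_smul, map_sub, hττ, ← smul_neg, neg_sub]
      · rw [← smul_add, add_add_sub_cancel, ← two_smul F v, smul_smul, inv_mul_cancel₀ h2, one_smul]
  -- dimensions
  have hdim := Submodule.finrank_add_eq_of_isCompl hcompl
  rw [Module.finrank_fin_fun] at hdim
  have hdet : (-1 : F) ^ (Module.finrank F E') = 1 := by
    have e1 : τ = (E.prodEquivOfIsCompl E' hcompl : (E × E') →ₗ[F] (Fin 4 → F)) ∘ₗ
        (LinearMap.prodMap LinearMap.id ((-1 : F) • LinearMap.id)) ∘ₗ
        ((E.prodEquivOfIsCompl E' hcompl).symm : (Fin 4 → F) →ₗ[F] (E × E')) := by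
      apply LinearMap.ext
      intro v
      obtain ⟨x, rfl⟩ := (E.prodEquivOfIsCompl E' hcompl).surjective v
      rw [LinearMap.comp_apply, LinearMap.comp_apply, LinearEquiv.coe_coe, LinearEquiv.coe_coe,
        LinearEquiv.symm_apply_apply, LinearMap.prodMap_apply, Submodule.coe_prodEquivOfIsCompl',
        Submodule.coe_prodEquivOfIsCompl', map_add, (hE _).1 x.1.2, (hE' _).1 x.2.2]
      simp
    have e2 := congrArg LinearMap.det e1
    rw [LinearMap.det_conj, LinearMap.det_prodMap, LinearMap.det_id, one_mul, LinearMap.det_smul, LinearMap.det_id,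
      mul_one, hτ, LinearMap.det_toLin'] at e2
    rw [← e2]; exact T.2
  have hev : Even (Module.finrank F E') := by
    by_contra hodd
    rw [Nat.not_even_iff_odd] at hodd
    rw [hodd.neg_one_pow] at hdet
    exact h2 (by linear_combination -hdet)
  have hE0 : Module.finrank F E ≠ 0 := by
    intro h0
    rw [Submodule.finrank_eq_zero] at h0
    apply h1'
    apply Matrix.toLin'.injective
    rw [← hτ, map_neg, Matrix.toLin'_one]
    apply LinearMap.ext
    intro v
    have h4 : v + τ v ∈ E := by rw [hE, map_add, hττ, add_comm]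
    rw [h0, Submodule.mem_bot] at h4
    exact eq_neg_of_add_eq_zero_right h4
  have hE0' : Module.finrank F E' ≠ 0 := by
    intro h0
    rw [Submodule.finrank_eq_zero] at h0
    apply h1
    apply Matrix.toLin'.injective
    rw [← hτ, Matrix.toLin'_one]
    apply LinearMap.ext
    intro v
    have h4 : v - τ v ∈ E' := by rw [hE', map_sub, hττ, neg_sub]
    rw [h0, Submodule.mem_bot] at h4
    exact (sub_eq_zero.1 h4).symm
  have d1 : Module.finrank F E = 2 := by obtain ⟨k, hk⟩ := hev; omega
  have d2 : Module.finrank F E' = 2 := by obtain ⟨k, hk⟩ := hev; omega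
  -- the two restrictions
  have hcomm : ∀ c : centralizer ({T} : Set (SpecialLinearGroup (Fin 4) F)), ∀ v,
      τ ((c : SpecialLinearGroup (Fin 4) F).1 *ᵥ v) = (c : SpecialLinearGroup (Fin 4) F).1 *ᵥ τ v := by
    intro c v
    have h3 : (c : SpecialLinearGroup (Fin 4) F) * T = T * c := mem_centralizer_singleton_iff.1 c.2
    have h4 : (c : SpecialLinearGroup (Fin 4) F).1 * T.1 = T.1 * (c : SpecialLinearGroup (Fin 4) F).1 :=
      congrArg Subtype.val h3
    rw [hτ, Matrix.toLin'_apply, Matrix.toLin'_apply, Matrix.mulVec_mulVec, Matrix.mulVec_mulVec, h4]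
  let r : ∀ (D : Submodule F (Fin 4 → F)), (∀ c : centralizer ({T} : Set (SpecialLinearGroup (Fin 4) F)), ∀ v ∈ D,
      (Matrix.toLin' (c : SpecialLinearGroup (Fin 4) F).1) v ∈ D) →
      centralizer ({T} : Set (SpecialLinearGroup (Fin 4) F)) →* Module.End F D := fun D hD =>
    { toFun := fun c => (Matrix.toLin' (c : SpecialLinearGroup (Fin 4) F).1).restrict (hD c)
      map_one' := by
        apply LinearMap.ext
        intro v
        apply Subtype.ext
        change (1 : Matrix (Fin 4) (Fin 4) F) *ᵥ (v : Fin 4 → F) = v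
        rw [Matrix.one_mulVec]
      map_mul' := by
        intro a b
        apply LinearMap.ext
        intro v
        apply Subtype.ext
        change (((a : SpecialLinearGroup (Fin 4) F) * (b : SpecialLinearGroup (Fin 4) F) : SpecialLinearGroup (Fin 4) F) :
          Matrix (Fin 4) (Fin 4) F) *ᵥ (v : Fin 4 → F) = (a : SpecialLinearGroup (Fin 4) F).1 *ᵥ
            ((b : SpecialLinearGroup (Fin 4) F).1 *ᵥ (v : Fin 4 → F))
        rw [Matrix.mulVec_mulVec, Matrix.SpecialLinearGroup.coe_mul] }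
  have hDE : ∀ c : centralizer ({T} : Set (SpecialLinearGroup (Fin 4) F)), ∀ v ∈ E,
      (Matrix.toLin' (c : SpecialLinearGroup (Fin 4) F).1) v ∈ E := by
    intro c v hv
    rw [hE, Matrix.toLin'_apply, hcomm, (hE v).1 hv]
  have hDE' : ∀ c : centralizer ({T} : Set (SpecialLinearGroup (Fin 4) F)), ∀ v ∈ E',
      (Matrix.toLin' (c : SpecialLinearGroup (Fin 4) F).1) v ∈ E' := by
    intro c v hv
    rw [hE', Matrix.toLin'_apply, hcomm, (hE' v).1 hv, Matrix.mulVec_neg]
  let φ : centralizer ({T} : Set (SpecialLinearGroup (Fin 4) F)) →* (Module.End F E)ˣ × (Module.End F E')ˣ :=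
    (r E hDE).toHomUnits.prod (r E' hDE').toHomUnits
  have hφ : Function.Injective φ := by
    rw [injective_iff_map_eq_one]
    intro c hc
    have h3 : r E hDE c = 1 := congrArg (fun x => (x.1 : Module.End F E)) hc
    have h4 : r E' hDE' c = 1 := congrArg (fun x => (x.2 : Module.End F E')) hc
    apply Subtype.ext
    apply Subtype.ext
    apply Matrix.mulVec_injective
    funext v
    obtain ⟨x, rfl⟩ := (E.prodEquivOfIsCompl E' hcompl).surjective v
    have h5 : (c : SpecialLinearGroup (Fin 4) F).1 *ᵥ (x.1 : Fin 4 → F) = x.1 :=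
      congrArg Subtype.val (LinearMap.congr_fun h3 x.1)
    have h6 : (c : SpecialLinearGroup (Fin 4) F).1 *ᵥ (x.2 : Fin 4 → F) = x.2 :=
      congrArg Subtype.val (LinearMap.congr_fun h4 x.2)
    rw [Submodule.coe_prodEquivOfIsCompl', Matrix.mulVec_add, h5, h6]
    change _ = (1 : Matrix (Fin 4) (Fin 4) F) *ᵥ _
    rw [Matrix.one_mulVec]
  have hfin : Finite (Module.End F E) := Module.finite_of_finite F
  have hfin' : Finite (Module.End F E') := Module.finite_of_finite F
  have h7 := Subgroup.card_dvd_of_injective φ hφ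
  have hu : ∀ D : Submodule F (Fin 4 → F), Module.finrank F D = 2 → Nat.card (Module.End F D)ˣ = Nat.card (GL (Fin 2) F) := by
    intro D hD
    let b := Module.finBasisOfFinrankEq F D hD
    exact Nat.card_congr (Units.mapEquiv (LinearMap.toMatrixAlgEquiv b : Module.End F D ≃ₐ[F] Matrix (Fin 2) (Fin 2) F).toMulEquiv).toEquiv
  rwa [Nat.card_prod, hu E d1, hu E' d2] at h7

end B


section A

/-- the natural action -/
abbrev actV (P : Subgroup (SpecialLinearGroup (Fin 4) F)) : MulAction P (Fin 4 → F) where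
  smul p v := (p : SpecialLinearGroup (Fin 4) F).1 *ᵥ v
  one_smul v := Matrix.one_mulVec v
  mul_smul a b v := by
    change ((a : SpecialLinearGroup (Fin 4) F) * (b : SpecialLinearGroup (Fin 4) F)).1 *ᵥ v = _
    rw [Matrix.SpecialLinearGroup.coe_mul, ← Matrix.mulVec_mulVec]
    rfl

theorem sq_add_sq {F : Type*} [Field F] [Fintype F] (hF : Fintype.card F = 3) {a b : F} (h : a ^ 2 + b ^ 2 = 0) :
    a = 0 ∧ b = 0 := by
  have h3 : ∀ x : F, x ^ 3 = x := fun x => by
    have := FiniteField.pow_card x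
    rwa [hF] at this
  have hc : (3 : F) = 0 := by
    have := Nat.cast_card_eq_zero F
    rw [hF] at this
    exact_mod_cast this
  by_cases hb : b = 0
  · subst hb
    refine ⟨?_, rfl⟩
    simpa using h
  · exfalso
    -- `c = a / b`, `c² = -1`
    obtain ⟨c, hcd⟩ : ∃ c, c = a / b := ⟨_, rfl⟩
    have h4 : c ^ 2 = -1 := by
      rw [hcd, div_pow, div_eq_iff (pow_ne_zero 2 hb)]
      linear_combination h
    have h5 := h3 c
    have h6 : (2 : F) * c = 0 := by
      have : c ^ 3 = -c := by rw [pow_succ, h4]; ring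
      linear_combination h5 * (-1) + this
    have h7 : c = 0 := by linear_combination c * hc - h6
    rw [h7] at h4
    have h8 : (1 : F) = 0 := by linear_combination h4
    exact one_ne_zero h8

/-- the case of an element with square `-1` -/
theorem not_dvd_of_sq_neg (hF : Fintype.card F = 3) {T : SpecialLinearGroup (Fin 4) F} (hT : T.1 * T.1 = -1) :
    ¬ 27 ∣ Nat.card (centralizer ({T} : Set (SpecialLinearGroup (Fin 4) F))) := by
  intro h27
  have hp3 : Fact (Nat.Prime 3) := ⟨Nat.prime_three⟩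
  obtain ⟨P', hP'⟩ := Sylow.exists_subgroup_card_pow_prime (G := centralizer ({T} : Set (SpecialLinearGroup (Fin 4) F))) 3
    (n := 3) h27
  obtain ⟨P, hPd⟩ : ∃ P, P = P'.map (centralizer ({T} : Set (SpecialLinearGroup (Fin 4) F))).subtype := ⟨_, rfl⟩
  have hP : Nat.card P = 3 ^ 3 := by
    rw [hPd, Subgroup.card_map_of_injective (Subgroup.subtype_injective _), hP']
  have hPT : ∀ p ∈ P, p.1 * T.1 = T.1 * p.1 := by
    intro p hp
    rw [hPd] at hp
    obtain ⟨c, -, rfl⟩ := hp
    exact congrArg (fun x : SpecialLinearGroup (Fin 4) F => x.1) (mem_centralizer_singleton_iff.1 c.2)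
  have hTT : ∀ v, T.1 *ᵥ (T.1 *ᵥ v) = -v := by
    intro v
    rw [Matrix.mulVec_mulVec, hT, Matrix.neg_mulVec, Matrix.one_mulVec]
  let _ : MulAction P (Fin 4 → F) := actV P
  have hsm : ∀ (p : P) (v : Fin 4 → F), p • v = (p : SpecialLinearGroup (Fin 4) F).1 *ᵥ v := fun _ _ => rfl
  have hsT : ∀ (p : P) (v : Fin 4 → F), p • (T.1 *ᵥ v) = T.1 *ᵥ (p • v) := by
    intro p v
    rw [hsm, hsm, Matrix.mulVec_mulVec, Matrix.mulVec_mulVec, hPT p p.2]
  have hcardV : Fintype.card (Fin 4 → F) = 81 := by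
    rw [Fintype.card_fun, hF, Fintype.card_fin]; norm_num
  -- a fixed vector
  have hpP : IsPGroup 3 P := IsPGroup.of_card hP
  obtain ⟨w, hw, hw0⟩ := hpP.exists_fixed_point_of_prime_dvd_card_of_fixed_point (α := Fin 4 → F)
    (by rw [Nat.card_eq_fintype_card, hcardV]; norm_num) (a := 0) (by
      rw [MulAction.mem_fixedPoints]
      intro p
      rw [hsm, Matrix.mulVec_zero])
  rw [MulAction.mem_fixedPoints] at hw
  -- combinations
  have hcomb : ∀ u : Fin 4 → F, ∀ a b : F, T.1 *ᵥ (a • u + b • (T.1 *ᵥ u)) = a • (T.1 *ᵥ u) - b • u := by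
    intro u a b
    rw [Matrix.mulVec_add, Matrix.mulVec_smul, Matrix.mulVec_smul, hTT, smul_neg, sub_eq_add_neg]
  have hnorm : ∀ u : Fin 4 → F, ∀ a b : F, a • (a • u + b • (T.1 *ᵥ u)) - b • (T.1 *ᵥ (a • u + b • (T.1 *ᵥ u))) =
      (a ^ 2 + b ^ 2) • u := by
    intro u a b
    rw [hcomb]
    module
  -- an element of `P` fixing `u ∉ V^P` is trivial
  have key : ∀ (p : P), p ≠ 1 → ∀ u, p • u = u → ∃ a b : F, u = a • w + b • (T.1 *ᵥ w) := by
    intro p hp1 u hu
    by_contra hcon
    push Not at hcon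
    apply hp1
    let L : (F × F) × (F × F) →ₗ[F] (Fin 4 → F) :=
      { toFun := fun x => (x.1.1 • w + x.1.2 • (T.1 *ᵥ w)) + (x.2.1 • u + x.2.2 • (T.1 *ᵥ u))
        map_add' := by
          intro x y
          simp only [Prod.fst_add, Prod.snd_add]
          module
        map_smul' := by
          intro c x
          simp only [Prod.smul_fst, Prod.smul_snd, smul_eq_mul, RingHom.id_apply]
          module }
    have hL : Function.Injective L := by
      rw [injective_iff_map_eq_zero]
      rintro ⟨⟨a, b⟩, ⟨c, d⟩⟩ h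
      have h' : (a • w + b • (T.1 *ᵥ w)) + (c • u + d • (T.1 *ᵥ u)) = 0 := h
      have hcd : c = 0 ∧ d = 0 := by
        by_contra hne
        have h1 : c ^ 2 + d ^ 2 ≠ 0 := fun h1 => hne (sq_add_sq hF h1)
        have h2 : c • u + d • (T.1 *ᵥ u) = (-a) • w + (-b) • (T.1 *ᵥ w) := by
          rw [neg_smul, neg_smul, ← neg_add]
          exact (neg_eq_of_add_eq_zero_right h').symm
        have h3 := hnorm u c d
        rw [h2, hcomb w] at h3
        apply hcon ((c ^ 2 + d ^ 2)⁻¹ * (c * (-a) + d * (-b))) ((c ^ 2 + d ^ 2)⁻¹ * (c * (-b) - d * (-a)))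
        have h4 : u = (c ^ 2 + d ^ 2)⁻¹ • ((c ^ 2 + d ^ 2) • u) := by
          rw [smul_smul, inv_mul_cancel₀ h1, one_smul]
        rw [h4, ← h3]
        module
      obtain ⟨rfl, rfl⟩ := hcd
      rw [zero_smul, zero_smul, add_zero, add_zero] at h'
      have h1 := hnorm w a b
      rw [h', Matrix.mulVec_zero, smul_zero, smul_zero, sub_zero] at h1
      have h2 := (smul_eq_zero.1 h1.symm).resolve_right (Ne.symm hw0)
      obtain ⟨rfl, rfl⟩ := sq_add_sq hF h2
      rfl
    have hLs : Function.Surjective L := by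
      have hcard : Fintype.card ((F × F) × (F × F)) = Fintype.card (Fin 4 → F) := by
        rw [hcardV, Fintype.card_prod, Fintype.card_prod, hF]
      exact ((Fintype.bijective_iff_injective_and_card L).2 ⟨hL, hcard⟩).2
    apply Subtype.ext
    apply Subtype.ext
    apply Matrix.mulVec_injective
    funext v
    obtain ⟨⟨⟨a, b⟩, ⟨c, d⟩⟩, rfl⟩ := hLs v
    have e1 : (p : SpecialLinearGroup (Fin 4) F).1 *ᵥ w = w := hw p
    have e2 : (p : SpecialLinearGroup (Fin 4) F).1 *ᵥ (T.1 *ᵥ w) = T.1 *ᵥ w := by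
      have := hsT p w
      rw [hw p] at this
      exact this
    have e3 : (p : SpecialLinearGroup (Fin 4) F).1 *ᵥ u = u := hu
    have e4 : (p : SpecialLinearGroup (Fin 4) F).1 *ᵥ (T.1 *ᵥ u) = T.1 *ᵥ u := by
      have := hsT p u
      rw [hu] at this
      exact this
    change (p : SpecialLinearGroup (Fin 4) F).1 *ᵥ ((a • w + b • (T.1 *ᵥ w)) + (c • u + d • (T.1 *ᵥ u))) =
      (1 : Matrix (Fin 4) (Fin 4) F) *ᵥ _
    rw [Matrix.one_mulVec, Matrix.mulVec_add, Matrix.mulVec_add, Matrix.mulVec_add, Matrix.mulVec_smul,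
      Matrix.mulVec_smul, Matrix.mulVec_smul, Matrix.mulVec_smul, e1, e2, e3, e4]
    rfl
  -- the number of fixed vectors of `p ≠ 1`
  have hfix : ∀ p : P, p ≠ 1 → Nat.card (MulAction.fixedBy (Fin 4 → F) p) = 9 := by
    intro p hp1
    let f : F × F → MulAction.fixedBy (Fin 4 → F) p := fun x => ⟨x.1 • w + x.2 • (T.1 *ᵥ w), by
      have e1 : (p : SpecialLinearGroup (Fin 4) F).1 *ᵥ w = w := hw p
      have e2 : (p : SpecialLinearGroup (Fin 4) F).1 *ᵥ (T.1 *ᵥ w) = T.1 *ᵥ w := by
        have := hsT p w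
        rw [hw p] at this
        exact this
      rw [MulAction.mem_fixedBy, hsm, Matrix.mulVec_add, Matrix.mulVec_smul, Matrix.mulVec_smul, e1, e2]⟩
    have hf : Function.Bijective f := by
      constructor
      · rintro ⟨a, b⟩ ⟨c, d⟩ h
        have h1 : a • w + b • (T.1 *ᵥ w) = c • w + d • (T.1 *ᵥ w) := congrArg Subtype.val h
        have h2 : (a - c) • w + (b - d) • (T.1 *ᵥ w) = 0 := by
          have : (a - c) • w + (b - d) • (T.1 *ᵥ w) = (a • w + b • (T.1 *ᵥ w)) - (c • w + d • (T.1 *ᵥ w)) := by module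
          rw [this, h1, sub_self]
        have h3 := hnorm w (a - c) (b - d)
        rw [h2, Matrix.mulVec_zero, smul_zero, smul_zero, sub_zero] at h3
        have h4 := (smul_eq_zero.1 h3.symm).resolve_right (Ne.symm hw0)
        obtain ⟨h5, h6⟩ := sq_add_sq hF h4
        rw [sub_eq_zero.1 h5, sub_eq_zero.1 h6]
      · rintro ⟨u, hu⟩
        obtain ⟨a, b, hab⟩ := key p hp1 u (MulAction.mem_fixedBy.1 hu)
        exact ⟨(a, b), Subtype.ext hab.symm⟩
    rw [← Nat.card_congr (Equiv.ofBijective f hf), Nat.card_eq_fintype_card, Fintype.card_prod, hF]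
  -- Burnside
  classical
  have hB := MulAction.sum_card_fixedBy_eq_card_orbits_mul_card_group P (Fin 4 → F)
  rw [← Finset.add_sum_erase _ _ (Finset.mem_univ (1 : P))] at hB
  have h1 : Fintype.card (MulAction.fixedBy (Fin 4 → F) (1 : P)) = 81 := by
    rw [← hcardV]
    apply Fintype.card_congr
    refine ⟨fun x => x.1, fun x => ⟨x, ?_⟩, fun x => rfl, fun x => rfl⟩
    rw [MulAction.mem_fixedBy, one_smul]
  have h2 : ∑ p ∈ Finset.univ.erase (1 : P), Fintype.card (MulAction.fixedBy (Fin 4 → F) p) = 26 * 9 := by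
    rw [Finset.sum_congr rfl (g := fun _ => 9) (fun p hp => by
      rw [← Nat.card_eq_fintype_card]
      exact hfix p (Finset.ne_of_mem_erase hp)), Finset.sum_const, Finset.card_erase_of_mem (Finset.mem_univ _),
      Finset.card_univ, ← Nat.card_eq_fintype_card, hP]
    norm_num
  rw [h1, h2, ← Nat.card_eq_fintype_card (α := P), hP] at hB
  omega

end A

/-- **involutions of `PSL₄(3)`** -/
theorem not_dvd (hF : Fintype.card F = 3) (t : ProjectiveSpecialLinearGroup (Fin 4) F) (ht : orderOf t = 2) :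
    ¬ 27 ∣ Nat.card (centralizer ({t} : Set (ProjectiveSpecialLinearGroup (Fin 4) F))) := by
  intro h27
  have hc : (3 : F) = 0 := by
    have := Nat.cast_card_eq_zero F
    rw [hF] at this
    exact_mod_cast this
  have h2 : (2 : F) ≠ 0 := by
    intro h
    have : (1 : F) = 0 := by linear_combination hc - h
    exact one_ne_zero this
  have hcen : ∀ z ∈ center (SpecialLinearGroup (Fin 4) F), z.1 = 1 ∨ z.1 = -1 := by
    intro z hz
    rw [Matrix.SpecialLinearGroup.mem_center_iff] at hz
    obtain ⟨r, hr, hz⟩ := hz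
    rw [Fintype.card_fin] at hr
    have h4 : r = 1 ∨ r = -1 := by
      have h3 : r ^ 3 = r := by
        have := FiniteField.pow_card r
        rwa [hF] at this
      have h5 : (r - 1) * (r + 1) = 0 := by linear_combination hr - r * h3
      rcases mul_eq_zero.1 h5 with h6 | h6
      · exact Or.inl (sub_eq_zero.1 h6)
      · exact Or.inr (eq_neg_of_add_eq_zero_left h6)
    rcases h4 with rfl | rfl
    · left; rw [← hz, map_one]
    · right; rw [← hz, map_neg, map_one]
  obtain ⟨T, rfl⟩ := QuotientGroup.mk'_surjective _ t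
  have hker : (QuotientGroup.mk' (center (SpecialLinearGroup (Fin 4) F))).ker = center (SpecialLinearGroup (Fin 4) F) :=
    QuotientGroup.ker_mk' _
  have h3 := lift_dvd (QuotientGroup.mk' (center (SpecialLinearGroup (Fin 4) F))) (QuotientGroup.mk'_surjective _)
    hker.le (by
      rw [hker]
      intro h3
      have hp3 : Fact (Nat.Prime 3) := ⟨Nat.prime_three⟩
      obtain ⟨z, hz⟩ := exists_prime_orderOf_dvd_card' 3 h3
      have h5 : z ^ 2 = 1 := by
        apply Subtype.ext
        apply Subtype.ext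
        rcases hcen z.1 z.2 with h | h
        · change z.1.1 ^ 2 = 1
          rw [h]; simp
        · change z.1.1 ^ 2 = 1
          rw [h]; simp
      have h6 := orderOf_dvd_of_pow_eq_one h5
      rw [hz] at h6
      norm_num at h6) T h27
  have hTT : T * T ∈ center (SpecialLinearGroup (Fin 4) F) := by
    have h4 : (QuotientGroup.mk' (center (SpecialLinearGroup (Fin 4) F)) T) ^ 2 = 1 := by
      rw [← ht]; exact pow_orderOf_eq_one _
    rw [← map_pow, pow_two] at h4
    exact (QuotientGroup.eq_one_iff _).1 h4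
  have hTn : T ∉ center (SpecialLinearGroup (Fin 4) F) := by
    intro h4
    have h5 : QuotientGroup.mk' (center (SpecialLinearGroup (Fin 4) F)) T = 1 := (QuotientGroup.eq_one_iff _).2 h4
    rw [h5, orderOf_one] at ht
    norm_num at ht
  rcases hcen _ hTT with h | h
  · have h4 : T.1 * T.1 = 1 := h
    have h5 := h3.trans (card_dvd_of_sq h2 h4 (fun h => hTn (by
      have : T = 1 := Subtype.ext h
      rw [this]; exact one_mem _)) (fun h => hTn (by
      rw [Matrix.SpecialLinearGroup.mem_center_iff]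
      refine ⟨-1, by rw [Fintype.card_fin]; norm_num, ?_⟩
      rw [h, map_neg, map_one])))
    have h6 : Nat.card (GL (Fin 2) F) = 48 := by
      rw [Matrix.card_GL_field, hF, Fin.prod_univ_two]
      norm_num
    rw [h6] at h5
    norm_num at h5
  · exact not_dvd_of_sq_neg hF (T := T) h h3

end Cfsg.Agent.H351.OE.LFour
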