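import Cfsg.Agent.H351.OE.Cross

/-!
# S3372: orthogonal groups in characteristic not three
-/

set_option autoImplicit false
set_option linter.unusedSectionVars false
set_option linter.unusedVariables false

namespace Cfsg.Agent.H351.OE

open Subgroup Cfsg H343 H128.Val3 H341.ThreeList H128.Cross3 H128.ClassicalAb
open Cfsg.Agent.LieClassical.OmegaReindex Cfsg.Agent.LieClassical.OmegaCenter

section

variable {F : Type} [Field F] [Fintype F]

theorem center_plus_two {z : Omega F (quadFormPlus 2 F)} (hz : z ∈ center (Omega F (quadFormPlus 2 F))) :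
    z ^ 2 = 1 := by
  have h1 : omegaMat z = 1 ∨ omegaMat z = -1 :=
    (mem_center_omega_iff (quadPlus 2 F) quadPlus_nondegenerate (by simp) (quadPlus_isotropic (by norm_num)) z).1 hz
  apply omega_ext
  have h2 : omegaMat (z ^ 2) = omegaMat z * omegaMat z := by
    rw [pow_two]; rfl
  have h3 : omegaMat (1 : Omega F (quadFormPlus 2 F)) = 1 := rfl
  rw [h2, h3]
  rcases h1 with h | h <;> rw [h] <;> simp

theorem card_psl_two_dvd : Nat.card (Matrix.SpecialLinearGroup (Fin 2) F) ∣
    2 * Nat.card (Matrix.ProjectiveSpecialLinearGroup (Fin 2) F) := by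
  rw [OddHalf.Quat.NoThreeL.card_SL, Cfsg.Agent.S0280.card_center_SL (by norm_num)]
  exact Nat.mul_dvd_mul_right (Nat.gcd_dvd_left _ _) _

theorem exists_plus_two (hq : 3 ≤ Fintype.card F) (hq3 : ¬ 3 ∣ Fintype.card F) :
    ∃ d : Omega F (quadFormPlus 2 F), orderOf d = 3 ∧ d ∉ center (Omega F (quadFormPlus 2 F)) ∧
      Nat.card (Matrix.ProjectiveSpecialLinearGroup (Fin 2) F) ∣
        Nat.card (centralizer ({d} : Set (Omega F (quadFormPlus 2 F)))) := by
  have hfin : Finite (Omega F (quadFormPlus 2 F)) := inferInstance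
  obtain ⟨e⟩ := Cfsg.Agent.S0299.result (F := F) hq
  have h3 : 3 ∣ Nat.card (Matrix.ProjectiveSpecialLinearGroup (Fin 2) F) := by
    have h1 := card_psl_two_dvd (F := F)
    rw [H343.card_SL_two rfl] at h1
    have h2 := (three_dvd_mul_sq_sub_one (q := Fintype.card F) Fintype.card_pos).trans h1
    exact (Nat.Coprime.dvd_mul_left (by norm_num)).1 h2
  obtain ⟨d1, hd1⟩ := exists_orderOf_three h3
  have hpow : d1 ^ 3 = 1 := by rw [← hd1]; exact pow_orderOf_eq_one d1
  let π : Omega F (quadFormPlus 2 F) →* POmega F (quadFormPlus 2 F) := QuotientGroup.mk' _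
  have hπ : Function.Surjective π := QuotientGroup.mk'_surjective _
  let φ : Omega F (quadFormPlus 2 F) →* Matrix.ProjectiveSpecialLinearGroup (Fin 2) F ×
      Matrix.ProjectiveSpecialLinearGroup (Fin 2) F := e.toMonoidHom.comp π
  have hφ : Function.Surjective φ := e.surjective.comp hπ
  have hker : ∀ x, φ x = 1 ↔ x ∈ center (Omega F (quadFormPlus 2 F)) := by
    intro x
    constructor
    · intro hx
      have h1 : π x = 1 := e.injective (by rw [map_one]; exact hx)
      exact (QuotientGroup.eq_one_iff _).1 h1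
    · intro hx
      have h1 : π x = 1 := (QuotientGroup.eq_one_iff _).2 hx
      change e (π x) = 1
      rw [h1, map_one]
  obtain ⟨x, hx⟩ := hφ (d1, 1)
  have hx3 : x ^ 3 ∈ center (Omega F (quadFormPlus 2 F)) := by
    rw [← hker, map_pow, hx]
    rw [Prod.pow_mk, hpow, one_pow]; rfl
  have hx6 : x ^ 6 = 1 := by
    have := center_plus_two hx3
    rwa [← pow_mul] at this
  have hφd : φ (x ^ 4) = (d1, 1) := by
    rw [map_pow, hx]
    rw [Prod.pow_mk, one_pow, pow_succ, hpow, one_mul]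
  have hd3 : (x ^ 4) ^ 3 = 1 := by
    rw [← pow_mul, show 4 * 3 = 6 * 2 by norm_num, pow_mul, hx6, one_pow]
  have hd1' : d1 ≠ 1 := by
    rintro rfl
    rw [orderOf_one] at hd1
    norm_num at hd1
  have hnc : x ^ 4 ∉ center (Omega F (quadFormPlus 2 F)) := by
    intro hc
    rw [← hker, hφd] at hc
    exact hd1' (congrArg Prod.fst hc)
  refine ⟨x ^ 4, ?_, hnc, ?_⟩
  · have : Fact (Nat.Prime 3) := ⟨Nat.prime_three⟩
    apply orderOf_eq_prime hd3
    intro h1
    exact hnc (by rw [h1]; exact one_mem _)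
  · let ψ : centralizer ({x ^ 4} : Set (Omega F (quadFormPlus 2 F))) →* Matrix.ProjectiveSpecialLinearGroup (Fin 2) F :=
      (MonoidHom.snd _ _).comp (φ.comp (centralizer ({x ^ 4} : Set (Omega F (quadFormPlus 2 F)))).subtype)
    apply Subgroup.card_dvd_of_surjective ψ
    intro y
    obtain ⟨a, ha⟩ := hφ (1, y)
    have hz : a * x ^ 4 * a⁻¹ * (x ^ 4)⁻¹ ∈ center (Omega F (quadFormPlus 2 F)) := by
      rw [← hker]
      simp only [map_mul, map_inv]
      rw [hφd, ha]
      apply Prod.ext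
      · change 1 * d1 * 1⁻¹ * d1⁻¹ = 1
        group
      · change y * 1 * y⁻¹ * 1⁻¹ = 1
        group
    obtain ⟨z, hzd⟩ : ∃ z, z = a * x ^ 4 * a⁻¹ * (x ^ 4)⁻¹ := ⟨_, rfl⟩
    rw [← hzd] at hz
    have hz2 := center_plus_two hz
    have h1 : a * x ^ 4 * a⁻¹ = z * x ^ 4 := by rw [hzd]; group
    have hcomm : Commute z (x ^ 4) := (mem_center_iff.1 hz (x ^ 4)).symm
    have h2 : (z * x ^ 4) ^ 3 = 1 := by
      rw [← h1, conj_pow, hd3]; group
    rw [hcomm.mul_pow, hd3, mul_one, pow_succ, hz2, one_mul] at h2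
    refine ⟨⟨a, ?_⟩, ?_⟩
    · rw [mem_centralizer_singleton_iff]
      rw [h2, one_mul] at h1
      rw [mul_inv_eq_iff_eq_mul] at h1
      exact h1
    · change (φ a).2 = y
      rw [ha]

theorem q_of_psl_two (h : Nat.card (Matrix.ProjectiveSpecialLinearGroup (Fin 2) F) ∣ N0) : Fintype.card F ∈ [2, 3] := by
  apply qlist0 Fintype.isPrimePow_card_of_field
  rw [← H343.card_SL_two rfl]
  exact card_psl_two_dvd.trans (Nat.mul_dvd_mul_left 2 h)

theorem nine_dvd_plus_two (hq : 3 ≤ Fintype.card F) : 9 ∣ Nat.card (Omega F (quadFormPlus 2 F)) := by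
  obtain ⟨e⟩ := Cfsg.Agent.S0299.result (F := F) hq
  refine Dvd.dvd.trans ?_ (card_pomega_dvd (F := F) (quadFormPlus 2 F))
  rw [Nat.card_congr e.toEquiv, Nat.card_prod]
  have h3 : 3 ∣ Nat.card (Matrix.ProjectiveSpecialLinearGroup (Fin 2) F) := by
    have h1 := card_psl_two_dvd (F := F)
    rw [H343.card_SL_two rfl] at h1
    have h2 := (three_dvd_mul_sq_sub_one (q := Fintype.card F) Fintype.card_pos).trans h1
    exact (Nat.Coprime.dvd_mul_left (by norm_num)).1 h2
  exact Nat.mul_dvd_mul h3 h3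

/-- the orthogonal kill -/
theorem E3.orth {X : Type*} [Group X] (h : E3 X) {B : Type*} [Group B]
    (P : CommPair (Omega F (quadFormPlus 2 F)) B X) (hB : 9 ∣ Nat.card B) (hq3 : ¬ 3 ∣ Fintype.card F) :
    Fintype.card F = 2 := by
  have hq1 : 1 < Fintype.card F := Fintype.one_lt_card
  by_contra hc
  obtain ⟨d, hd, hdc, h1⟩ := exists_plus_two (F := F) (by omega) hq3
  have h2 := q_of_psl_two (h1.trans (h.pair' P hd hdc hB))
  simp only [List.mem_cons, List.not_mem_nil, or_false] at h2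
  omega

theorem oodd_cross {m : ℕ} (hm : 3 ≤ m) (ho : Odd (Fintype.card F)) (hq : ¬ 3 ∣ Fintype.card F)
    (h : E3 (POmega F (quadFormOdd m F))) : False := by
  have hF3 : Fact (Nat.Prime 3) := ⟨Nat.prime_three⟩
  have hq1 : 1 < Fintype.card F := Fintype.one_lt_card
  have hq5 : 3 ≤ Fintype.card F := by
    by_contra hc
    have : Fintype.card F = 2 := by omega
    rw [this] at ho
    exact absurd ho (by decide)
  have h3F : ((3 : ℕ) : F) ≠ 0 := three_ne_zero' hq
  have h1 := h.le_of (oodd_val (F := F) (m := m) hm ho hq)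
  have hm6 : m ≤ 5 := by
    by_contra hcon
    have := vf_six (n := m) (by omega)
    omega
  by_cases hm4 : 4 ≤ m
  · obtain ⟨l, rfl⟩ : ∃ l, m = 2 + (2 + l) := ⟨m - 4, by omega⟩
    have h2 := odd_two_ne (F := F) rfl ho
    have P := (Blk.sumOdd F 2 (2 + l)).ppair (coe_quadOdd _ _) (quadOdd_nondegenerate h2) (by simp; omega)
      (quadOdd_isotropic (by omega)) (Sum.inl 0) (Sum.inl ())
    have h4 := h.orth P ((nine_dvd_plus_two hq5).trans
      (Subgroup.card_dvd_of_injective _ (Blk.sumOdd F 2 l).omega_injective)) hq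
    rw [h4] at ho
    exact absurd ho (by decide)
  · have : m = 3 := by omega
    subst this
    have hc := S0292.result (F := F) rfl ho 3 hm
    have hX : Nat.card (POmega F (quadFormOdd 3 F)) ≠ 0 := Nat.card_pos.ne'
    have hv := v_of (by norm_num) hX hc
    have hvv := h.vv
    have hne : ∀ j, j ≠ 0 → Fintype.card F ^ j - 1 ≠ 0 := fun j hj => pow_sub_ne hq1 hj
    have hp : ∀ j, Fintype.card F ^ j ≠ 0 := fun j => (pow_pos (by omega) j).ne'
    have e4 := v_even (k := 2) hq1 hq (by norm_num)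
    have e6 := v_even (k := 3) hq1 hq (by norm_num)
    rw [padicValNat.eq_zero_of_not_dvd (show ¬ 3 ∣ 2 by norm_num)] at e4
    rw [show padicValNat 3 3 = 1 by simp] at e6
    simp only [Nat.reduceMul] at e4 e6
    have n2 := hne 2 (by norm_num)
    have n4 := hne 4 (by norm_num)
    have n6 := hne 6 (by norm_num)
    rw [padicValNat.eq_zero_of_not_dvd (show ¬ 3 ∣ 2 by norm_num),
      padicValNat.mul (hp _) (Finset.prod_ne_zero_iff.2 fun j _ => hne _ (by omega)), v_pow_zero hq,
      Finset.prod_range_succ, Finset.prod_range_succ, Finset.prod_range_one, show 2 * (0 + 1) = 2 by norm_num,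
      show 2 * (1 + 1) = 4 by norm_num, show 2 * (2 + 1) = 6 by norm_num, padicValNat.mul (mul_ne_zero n2 n4) n6,
      padicValNat.mul n2 n4] at hv
    omega

theorem oplus_cross {m : ℕ} (hm : 4 ≤ m) (hq : ¬ 3 ∣ Fintype.card F)
    (h : E3 (POmega F (quadFormPlus m F))) : m = 4 ∧ Fintype.card F = 2 := by
  have hF3 : Fact (Nat.Prime 3) := ⟨Nat.prime_three⟩
  have hq1 : 1 < Fintype.card F := Fintype.one_lt_card
  have h1 := h.le_of (oplus_val (F := F) (m := m) hm hq)
  have hm6 : m ≤ 6 := by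
    by_contra hcon
    have := vf_six (n := m - 1) (by omega)
    omega
  have hq2 : Fintype.card F = 2 := by
    by_contra hne
    obtain ⟨l, rfl⟩ : ∃ l, m = 2 + (2 + l) := ⟨m - 4, by omega⟩
    have P := (Blk.sumPlus F 2 (2 + l)).ppair (coe_quadPlus _ _) quadPlus_nondegenerate (by simp; omega)
      (quadPlus_isotropic (by omega)) (Sum.inl 0) (Sum.inl ⟨0, by omega⟩)
    exact hne (h.orth P ((nine_dvd_plus_two (by omega)).trans
      (Subgroup.card_dvd_of_injective _ (Blk.sumPlus F 2 l).omega_injective)) hq)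
  have hc := S0293.result (F := F) rfl m hm
  rw [hq2] at hc
  have hcases : m = 4 ∨ m = 5 ∨ m = 6 := by omega
  rcases hcases with rfl | rfl | rfl
  · exact ⟨rfl, hq2⟩
  · exfalso
    have hF2 : Fact (Nat.Prime 2) := ⟨Nat.prime_two⟩
    have h2 := Cfsg.Agent.S0817.result (F := F) 2 1 le_rfl (by rw [hq2, pow_one]) 5 (by norm_num)
    have h3 := h.aut
    have h4 : ∏ i ∈ Finset.range (5 - 1), (2 ^ (2 * (i + 1)) - 1) = 3 * 15 * 63 * 255 := by decide +kernel
    rw [h4] at hc
    norm_num at hc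
    rw [h2, hc] at h3
    revert h3
    norm_num
  · exfalso
    have h4 : ∏ i ∈ Finset.range (6 - 1), (2 ^ (2 * (i + 1)) - 1) = 3 * 15 * 63 * 255 * 1023 := by decide +kernel
    rw [h4] at hc
    norm_num at hc
    apply h.n7
    rw [hc]
    norm_num

theorem ominus_cross {m : ℕ} (hm : 4 ≤ m) {a b : F}
    (hab : ∀ z₁ z₂ : F, z₁ ^ 2 + a * z₁ * z₂ + b * z₂ ^ 2 = 0 → z₁ = 0 ∧ z₂ = 0) (hq : ¬ 3 ∣ Fintype.card F)
    (h : E3 (POmega F (quadFormMinus (m - 1) F a b))) : False := by
  have hF3 : Fact (Nat.Prime 3) := ⟨Nat.prime_three⟩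
  have hq1 : 1 < Fintype.card F := Fintype.one_lt_card
  have h3F : ((3 : ℕ) : F) ≠ 0 := three_ne_zero' hq
  have h1 := h.le_of (ominus_val (F := F) (m := m) hm hab hq)
  have hm6 : m ≤ 6 := by
    by_contra hcon
    have := vf_six (n := m - 1) (by omega)
    omega
  have hc := S0294.result (F := F) rfl m hm a b hab
  have hX : Nat.card (POmega F (quadFormMinus (m - 1) F a b)) ≠ 0 := Nat.card_pos.ne'
  have hd : Nat.gcd 4 (Fintype.card F ^ m + 1) ≠ 0 := (Nat.gcd_pos_of_pos_left _ (by omega)).ne'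
  have hv := v_of hd hX hc
  have hvv := h.vv
  have hne : ∀ j, j ≠ 0 → Fintype.card F ^ j - 1 ≠ 0 := fun j hj => pow_sub_ne hq1 hj
  have hp : ∀ j, Fintype.card F ^ j ≠ 0 := fun j => (pow_pos (by omega) j).ne'
  have e4 := v_even (k := 2) hq1 hq (by norm_num)
  have e6 := v_even (k := 3) hq1 hq (by norm_num)
  have e8 := v_even (k := 4) hq1 hq (by norm_num)
  rw [padicValNat.eq_zero_of_not_dvd (show ¬ 3 ∣ 2 by norm_num)] at e4
  rw [padicValNat.eq_zero_of_not_dvd (show ¬ 3 ∣ 4 by norm_num)] at e8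
  rw [show padicValNat 3 3 = 1 by simp] at e6
  simp only [Nat.reduceMul] at e4 e6 e8
  have hg : padicValNat 3 (Nat.gcd 4 (Fintype.card F ^ m + 1)) = 0 := by
    apply padicValNat.eq_zero_of_not_dvd
    intro h'
    have := h'.trans (Nat.gcd_dvd_left _ _)
    omega
  have n2 := hne 2 (by norm_num)
  have n4 := hne 4 (by norm_num)
  have n6 := hne 6 (by norm_num)
  have n8 := hne 8 (by norm_num)
  have hu := v_sq_pos hq1 hq
  rw [hg, padicValNat.mul (mul_ne_zero (hp _) pow_add_ne) (Finset.prod_ne_zero_iff.2 fun j _ => hne _ (by omega)),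
    padicValNat.mul (hp _) pow_add_ne, v_pow_zero hq] at hv
  have hq2 : 5 ≤ m → Fintype.card F = 2 := by
    intro hm5
    by_contra hne
    obtain ⟨l, rfl⟩ : ∃ l, m = 2 + (2 + l) + 1 := ⟨m - 5, by omega⟩
    rw [Nat.add_sub_cancel] at h
    have P := (Blk.sumMinus F a b 2 (2 + l)).ppair (coe_quadMinus _ _ a b) (quadMinus_nondegenerate hab) (by simp; omega)
      (quadMinus_isotropic (by omega) a b) (Sum.inl 0) (Sum.inr 0)
    exact hne (h.orth P ((nine_dvd_plus_two (by omega)).trans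
      (Subgroup.card_dvd_of_injective _ (Blk.sumMinus F a b 2 l).omega_injective)) hq)
  have hcases : m = 4 ∨ m = 5 ∨ m = 6 := by omega
  rcases hcases with rfl | rfl | rfl
  · have e0 : padicValNat 3 (Fintype.card F ^ 4 + 1) = 0 := v_even_add_zero (k := 2) hq
    obtain ⟨c, hcd⟩ : ∃ c, c = Nat.card (POmega F (quadFormMinus (4 - 1) F a b)) := ⟨_, rfl⟩
    rw [← hcd] at hv hvv
    rw [e0, show 4 - 1 = 1 + 1 + 1 by norm_num, Finset.prod_range_succ, Finset.prod_range_succ, Finset.prod_range_one,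
      show 2 * (0 + 1) = 2 by norm_num, show 2 * (1 + 1) = 4 by norm_num, show 2 * (1 + 1 + 1) = 6 by norm_num,
      padicValNat.mul (mul_ne_zero n2 n4) n6, padicValNat.mul n2 n4] at hv
    omega
  · have h2 := hq2 le_rfl
    have h6 : 3 ^ 6 ∣ Nat.card (POmega F (quadFormMinus (5 - 1) F a b)) := by
      rw [h2] at hc
      have h4 : ∏ i ∈ Finset.range (5 - 1), (2 ^ (2 * (i + 1)) - 1) = 3 * 15 * 63 * 255 := by decide +kernel
      rw [h4] at hc
      norm_num at hc
      rw [hc]; norm_num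
    have h7 := h.six_le (hasAb_ominus (by norm_num) h3F 4 a b hab) h6
    omega
  · have h2 := hq2 (by norm_num)
    have h' : E3 (POmega F (quadFormMinus (4 + 1) F a b)) := h
    have P := (Blk.sumMinus F a b 4 1).ppair (coe_quadMinus _ _ a b) (quadMinus_nondegenerate hab) (by simp)
      (quadMinus_isotropic (by norm_num) a b) (Sum.inl 0) (Sum.inr 0)
    have h27 : 27 ∣ Nat.card (Omega F (quadFormPlus 4 F)) := by
      refine Dvd.dvd.trans ?_ (card_pomega_dvd (F := F) (quadFormPlus 4 F))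
      have h8 := S0293.result (F := F) rfl 4 le_rfl
      rw [h2] at h8
      have h4 : ∏ i ∈ Finset.range (4 - 1), (2 ^ (2 * (i + 1)) - 1) = 3 * 15 * 63 := by decide +kernel
      rw [h4] at h8
      norm_num at h8
      rw [h8]; norm_num
    have h5 := h'.pair P h27
    -- `Ω₄⁻(2)` has order divisible by five
    let _ : Fintype (GaloisField 2 2) := Fintype.ofFinite _
    have hK : Fintype.card (GaloisField 2 2) = Fintype.card F ^ 2 := by
      rw [← Nat.card_eq_fintype_card, GaloisField.card 2 _ (by norm_num), h2]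
    obtain ⟨e⟩ := Cfsg.Agent.S0300.result rfl hK a b hab
    have h9 := (card_pomega_dvd (F := F) (quadFormMinus 1 F a b)).trans h5
    rw [Nat.card_congr e.toEquiv] at h9
    have h10 := q_of_psl_two h9
    rw [hK, h2] at h10
    revert h10
    decide

end

end Cfsg.Agent.H351.OE
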