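import Cfsg.Agent.H351.OE.CharT
import Cfsg.Agent.OrdDiv.Table
import Cfsg.Agent.CpAutLy.Row
import Cfsg.Agent.SigZeroHN.Main
import Cfsg.Agent.OddHalf.Quat.NoThreeSpor.J3

/-!
# S3372: sporadic groups
-/

set_option autoImplicit false
set_option linter.unusedSectionVars false
set_option linter.unusedVariables false

namespace Cfsg.Agent.H351.OE

open Subgroup Cfsg Cfsg.Agent.OrdDiv GTwoT

universe u

/-- if `Out` has no element of order three -/
theorem E3.six_of_noThree {K : Type*} [Group K] (h : E3 K) (hK : Cfsg.Agent.OddHalf.Quat.NoThree K) :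
    3 ^ 6 ∣ Nat.card K := by
  have hfin := h.fin
  have hF : Fact (Nat.Prime 3) := ⟨Nat.prime_three⟩
  have hfA : Finite (MulAut K) := Finite.of_injective (fun e : MulAut K => (e : K → K)) DFunLike.coe_injective
  obtain ⟨N, hN⟩ : ∃ N, N = (MulAut.conj : K →* MulAut K).range := ⟨_, rfl⟩
  have hn : N.Normal := by rw [hN]; infer_instance
  have h1 : ¬ 3 ∣ N.index := by
    intro h3
    rw [Subgroup.index_eq_card] at h3
    obtain ⟨x, hx⟩ := exists_prime_orderOf_dvd_card' (G := MulAut K ⧸ N) 3 h3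
    obtain ⟨α, rfl⟩ := QuotientGroup.mk_surjective x
    have h4 : α * α * α ∈ N := by
      rw [← QuotientGroup.eq_one_iff]
      have h5 := pow_orderOf_eq_one (α : MulAut K ⧸ N)
      rw [hx] at h5
      rw [QuotientGroup.mk_mul, QuotientGroup.mk_mul, ← h5, pow_succ, pow_two]
    rw [hN] at h4
    have h6 := hK α h4
    rw [← hN, ← QuotientGroup.eq_one_iff] at h6
    rw [h6, orderOf_one] at hx
    norm_num at hx
  have h2 := h.aut
  rw [← Subgroup.card_mul_index N] at h2
  have h3 : 3 ^ 6 ∣ Nat.card N :=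
    (Nat.Coprime.pow_left 6 ((Nat.Prime.coprime_iff_not_dvd Nat.prime_three).2 h1)).dvd_of_dvd_mul_right h2
  refine h3.trans ?_
  rw [hN]
  exact Subgroup.card_range_dvd _

/-- commuting elements of orders 3 and 5 -/
theorem E3.kill35 {X : Type*} [Group X] (h : E3 X) {z f : X} (hz : orderOf z = 3) (hf : orderOf f = 5)
    (hzf : z * f = f * z) (hc : 3 ^ 6 ∣ Nat.card (centralizer ({z} : Set X))) : False := by
  have h1 := h.cen z hz hc
  have h2 : f ∈ centralizer ({z} : Set X) := by
    rw [mem_centralizer_singleton_iff]; exact hzf.symm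
  have h3 := (Subgroup.orderOf_dvd_natCard _ h2).trans h1
  rw [hf] at h3
  revert h3; decide

theorem elim_mcl {K : Type*} [Group K] (h : E3 K) (hK : Spor.IsoMcL K) : False := by
  obtain ⟨z, u, f, hz, hu, hf, hzu, hzf, huf, hc⟩ := Cfsg.Agent.CpAutLy.McLElt.exists_data hK
  exact h.kill35 hz hf hzf hc

theorem elim_co2 {K : Type*} [Group K] (h : E3 K) (hK : Spor.IsoCo2 K) : False := by
  obtain ⟨e⟩ := hK
  have h' := h.congr e
  obtain ⟨z, u, f, hz, hu, hf, hzu, hzf, huf, hc⟩ := Cfsg.Agent.CpAutLy.McLElt.exists_data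
    (M := Spor.McL) ⟨MulEquiv.refl _⟩
  have hle : Spor.McL ≤ Spor.Co2 := le_inf (inf_le_left.trans inf_le_left) inf_le_right
  let i := Subgroup.inclusion hle
  have hi : Function.Injective i := Subgroup.inclusion_injective hle
  refine h'.kill35 (z := i z) (f := i f) (by rw [orderOf_injective _ hi, hz]) (by rw [orderOf_injective _ hi, hf])
    (by rw [← map_mul, hzf, map_mul]) (hc.trans ?_)
  have h1 : (centralizer ({z} : Set Spor.McL)).map i ≤ centralizer ({i z} : Set Spor.Co2) := by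
    rintro _ ⟨c, hc, rfl⟩
    rw [mem_centralizer_singleton_iff]
    have hc' := mem_centralizer_singleton_iff.1 hc
    rw [← map_mul, hc', map_mul]
  have h2 := Subgroup.card_dvd_of_le h1
  rwa [Subgroup.card_map_of_injective hi] at h2

theorem noT_hn : NoT Cfsg.Spor.HN := by
  intro t ht h27
  rcases Cfsg.Agent.SigZeroHN.card_centralizer_cases ht with ⟨-, h1⟩ | ⟨-, h1⟩ <;> rw [h1] at h27 <;>
    revert h27 <;> decide

theorem elim_hn {K : Type*} [Group K] (h : E3 K) (hK : Spor.IsoHN K) (h6 : 3 ^ 6 ∣ Nat.card K) : False := by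
  obtain ⟨e⟩ := hK
  have h' := h.congr e
  exact h'.noT noT_hn (by rwa [← Nat.card_congr e.toEquiv])

theorem elim_j3 {K : Type*} [Group K] (h : E3 K) (hK : Spor.IsoJ3 K) (h6 : ¬ 3 ^ 6 ∣ Nat.card K) : False :=
  h6 (h.six_of_noThree (Cfsg.Agent.OddHalf.Quat.NoThreeSpor.j3 hK))

end Cfsg.Agent.H351.OE
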