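import Cfsg.Agent.OddHalf.Small.U43
import Cfsg.Agent.H351.OE.LFour
import Cfsg.Agent.S0277
import Cfsg.Agent.TwoFusion.GUTwo
import Cfsg.Agent.S0279

/-!
# S3372: centralizers of involutions of `PSU₄(3)`
-/

set_option autoImplicit false
set_option linter.unusedSectionVars false
set_option linter.unusedVariables false

namespace Cfsg.Agent.H351.OE.UFour

open Matrix Cfsg Module Cfsg.Agent.OddHalf.Small.U43Mat Cfsg.Agent.OddHalf.Small.U43Good
  Cfsg.Agent.OddHalf.Small.U43
open Cfsg.Agent.OddHalf.Small.Crit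
open Cfsg.Agent.LieClassical.HermSiegel Cfsg.Agent.LieClassical.SUBasic
open Cfsg.Agent.ClassicalGeometry.UnitAutBasic (pr pr_surjective)
open Cfsg.Agent.ClassicalGeometry.HermOrtho Cfsg.Agent.ClassicalGeometry.PSUAutCount
open Subgroup

variable {F : Type*} [Field F] [CharP F 3] [Fintype F]

/-- a matrix with `X* X = 1` in `GU₂(3)` -/
def gu (h9 : ∀ x : F, x ^ 9 = x) (hF : Fintype.card F = 3 ^ 2) (X : M2 F) (hX : st X * X = 1) : Cfsg.GU 2 F 3 :=
  ⟨⟨X, st X, mul_st hX, hX⟩, by
    have e := congrFun (congrFun hX 0) 0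
    have e' := congrFun (congrFun hX 1) 1
    have e'' := congrFun (congrFun hX 1) 0
    rw [mul_apply, Fin.sum_univ_two, st_apply, st_apply, Matrix.one_apply_eq] at e e'
    rw [mul_apply, Fin.sum_univ_two, st_apply, st_apply, Matrix.one_apply_ne (by decide)] at e''
    refine (Cfsg.Agent.TwoFusion.GUTwo.mem_iff hF _).2 ⟨?_, ?_, ?_⟩
    · change X 0 0 * X 0 0 ^ 3 + X 1 0 * X 1 0 ^ 3 = 1
      linear_combination e
    · change X 0 1 * X 0 1 ^ 3 + X 1 1 * X 1 1 ^ 3 = 1
      linear_combination e'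
    · change X 0 0 * X 0 1 ^ 3 + X 1 0 * X 1 1 ^ 3 = 0
      linear_combination e''⟩

theorem gu_inj {h9 : ∀ x : F, x ^ 9 = x} {hF : Fintype.card F = 3 ^ 2} {X Y : M2 F} {hX : st X * X = 1}
    {hY : st Y * Y = 1} (h : gu h9 hF X hX = gu h9 hF Y hY) : X = Y :=
  congrArg (fun g : Cfsg.GU 2 F 3 => (g.1.1 : M2 F)) h

theorem gu_mul {h9 : ∀ x : F, x ^ 9 = x} {hF : Fintype.card F = 3 ^ 2} {X Y : M2 F} {hX : st X * X = 1}
    {hY : st Y * Y = 1} {hXY : st (X * Y) * (X * Y) = 1} : gu h9 hF (X * Y) hXY = gu h9 hF X hX * gu h9 hF Y hY := by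
  apply Subtype.ext
  apply Units.ext
  rfl

theorem comm_D {M : M4 F} (h : M * D4 F = D4 F * M) : b12 M = 0 ∧ b21 M = 0 := by
  have h12 := congrArg b12 h
  have h21 := congrArg b21 h
  rw [b12_mul, b12_mul, b12_D, b22_D, b11_D] at h12
  rw [b21_mul, b21_mul, b21_D, b22_D, b11_D] at h21
  simp only [mul_zero, zero_mul, zero_add, add_zero, mul_neg, neg_mul, mul_one, one_mul] at h12 h21
  exact ⟨eq_zero_of_neg h12, eq_zero_of_neg h21.symm⟩

theorem card_dvd (hF : Fintype.card F = 3 ^ 2) : Nat.card (centralizer ({d} : Set (SU 4 F 3))) ∣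
    Nat.card (Cfsg.GU 2 F 3) * Nat.card (Cfsg.GU 2 F 3) := by
  have h9 : ∀ x : F, x ^ 9 = x := fun x => by
    have := FiniteField.pow_card x
    rw [hF] at this
    exact this
  have hc : ∀ c : centralizer ({d} : Set (SU 4 F 3)), b12 (mat (c : SU 4 F 3)) = 0 ∧ b21 (mat (c : SU 4 F 3)) = 0 := by
    intro c
    apply comm_D
    rw [← mat_d, ← mat_mul, ← mat_mul]
    exact congrArg mat (mem_centralizer_singleton_iff.1 c.2)
  have hu : ∀ c : centralizer ({d} : Set (SU 4 F 3)), st (b11 (mat (c : SU 4 F 3))) * b11 (mat (c : SU 4 F 3)) = 1 ∧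
      st (b22 (mat (c : SU 4 F 3))) * b22 (mat (c : SU 4 F 3)) = 1 := fun c =>
    ⟨u11 (st_mat _) (hc c).2, u22 (st_mat _) (hc c).1⟩
  have hm : ∀ a b : centralizer ({d} : Set (SU 4 F 3)), b11 (mat ((a * b : centralizer ({d} : Set (SU 4 F 3))) : SU 4 F 3)) =
      b11 (mat (a : SU 4 F 3)) * b11 (mat (b : SU 4 F 3)) ∧
      b22 (mat ((a * b : centralizer ({d} : Set (SU 4 F 3))) : SU 4 F 3)) =
      b22 (mat (a : SU 4 F 3)) * b22 (mat (b : SU 4 F 3)) := by
    intro a b
    rw [Subgroup.coe_mul, mat_mul, b11_mul, b22_mul, (hc a).1, (hc b).1, mul_zero, zero_mul, add_zero, zero_add]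
    exact ⟨rfl, rfl⟩
  let φ : centralizer ({d} : Set (SU 4 F 3)) →* (Cfsg.GU 2 F 3) × (Cfsg.GU 2 F 3) := MonoidHom.mk'
    (fun c => (gu h9 hF _ (hu c).1, gu h9 hF _ (hu c).2)) (by
      intro a b
      apply Prod.ext
      · apply Subtype.ext
        apply Units.ext
        exact (hm a b).1
      · apply Subtype.ext
        apply Units.ext
        exact (hm a b).2)
  have hφ : Function.Injective φ := by
    intro a b h
    have h1 := gu_inj (h9 := h9) (hF := hF) (hX := (hu a).1) (hY := (hu b).1) (congrArg Prod.fst h)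
    have h2 := gu_inj (h9 := h9) (hF := hF) (hX := (hu a).2) (hY := (hu b).2) (congrArg Prod.snd h)
    apply Subtype.ext
    apply mat_injective
    exact ext4 h1 (by rw [(hc a).1, (hc b).1]) (by rw [(hc a).2, (hc b).2]) h2
  have : Finite (Cfsg.GU 2 F 3) := Cfsg.Agent.LieClassical.GUOrder.finite_GU 2
  have h7 := Subgroup.card_dvd_of_injective φ hφ
  rwa [Nat.card_prod] at h7

/-- lifts of involutions -/
theorem exists_lift (hF : Fintype.card F = 9) (t : PSU 4 F 3) (ht : orderOf t = 2) :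
    ∃ x : Cfsg.GU 4 F 3, pr 4 F 3 (guConj x d) = t := by
  have hF' : Fintype.card F = 3 ^ 2 := by rw [hF]; norm_num
  have key : ∀ g : SU 4 F 3, mat g * mat g = 1 → pr 4 F 3 g ≠ 1 → ∃ x : Cfsg.GU 4 F 3, guConj x d = g := by
    intro g h2 hg
    obtain ⟨P, hP⟩ := exists_conj hF' g h2 (fun h => hg (by
      have : g = 1 := mat_injective (by rw [h, mat_one])
      rw [this, map_one])) (fun h => hg (by
      rw [← map_one (pr 4 F 3)]
      refine (pr_eq_of_mat (c := -1) ?_).symm
      rw [h, mat_one, neg_smul, one_smul]))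
    refine ⟨P, ?_⟩
    apply mat_injective
    show mat (guConjFun P d) = mat g
    rw [mat_guConjFun, mat_d, ← hP, mul_assoc, gm_mul_inv, mul_one]
  have ht2 : t * t = 1 := by rw [← pow_two, ← ht, pow_orderOf_eq_one]
  have ht1 : t ≠ 1 := by
    intro h; rw [h, orderOf_one] at ht; norm_num at ht
  obtain ⟨g, rfl⟩ := pr_surjective t
  rw [← map_mul, ← map_one (pr 4 F 3)] at ht2
  obtain ⟨c, hc4, hc⟩ := mat_of_pr_eq hF ht2.symm
  rw [mat_mul, mat_one] at hc
  have h1 : (c ^ 2 + 1) * ((c + 1) * (c - 1)) = 0 := by linear_combination hc4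
  rcases mul_eq_zero.1 h1 with h2 | h2
  · exact (no_four hF' g (by linear_combination h2) hc).elim
  rcases mul_eq_zero.1 h2 with h3 | h3
  · -- c = -1
    obtain ⟨a, ha⟩ : ∃ a : F, a ^ 2 = -1 := by
      have h1 : IsSquare (-1 : F) := by
        rw [FiniteField.isSquare_neg_one_iff, hF]; norm_num
      obtain ⟨a, ha⟩ := h1
      exact ⟨a, by rw [pow_two, ← ha]⟩
    have ha4 : a ^ 4 = 1 := by linear_combination (a ^ 2 - 1) * ha
    have hm : mat (suScalar 3 a ha4 ha4 * g) = a • mat g := by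
      rw [mat_mul, mat_def, coe_suScalar]
      ext i j
      rw [diagonal_mul, Matrix.smul_apply, smul_eq_mul]
    have e1 := pr_eq_of_mat hm
    obtain ⟨x, hx⟩ := key (suScalar 3 a ha4 ha4 * g) (by
      rw [hm, Matrix.smul_mul, Matrix.mul_smul, hc, smul_smul, smul_smul]
      have : a * a * c = 1 := by linear_combination c * ha - h3
      rw [this, one_smul]) (by rw [← e1]; exact ht1)
    exact ⟨x, by rw [hx, e1]⟩
  · have hc1 : c = 1 := by linear_combination h3
    rw [hc1, one_smul] at hc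
    obtain ⟨x, hx⟩ := key g hc ht1
    exact ⟨x, by rw [hx]⟩

/-- **involutions of `PSU₄(3)`** -/
theorem not_dvd (hF : Fintype.card F = 9) (t : PSU 4 F 3) (ht : orderOf t = 2) :
    ¬ 27 ∣ Nat.card (centralizer ({t} : Set (PSU 4 F 3))) := by
  intro h27
  have hF' : Fintype.card F = 3 ^ 2 := by rw [hF]; norm_num
  obtain ⟨x, rfl⟩ := exists_lift hF t ht
  have hker : (pr 4 F 3).ker = center (SU 4 F 3) := QuotientGroup.ker_mk' _
  have h3 := LFour.lift_dvd (pr 4 F 3) pr_surjective hker.le (by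
    rw [hker, Cfsg.Agent.S0279.result hF' 4 (by norm_num)]
    norm_num) _ h27
  have h4 : Nat.card (centralizer ({guConj x d} : Set (SU 4 F 3))) = Nat.card (centralizer ({d} : Set (SU 4 F 3))) := by
    refine (Nat.card_congr ?_).symm
    refine
      { toFun := fun c => ⟨guConj x c.1, ?_⟩
        invFun := fun c => ⟨(guConj x).symm c.1, ?_⟩
        left_inv := fun c => by simp
        right_inv := fun c => by simp }
    · rw [mem_centralizer_singleton_iff]
      have := mem_centralizer_singleton_iff.mp c.2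
      rw [← map_mul, this, map_mul]
    · rw [mem_centralizer_singleton_iff]
      have := mem_centralizer_singleton_iff.mp c.2
      apply (guConj x).injective
      rw [map_mul, map_mul, MulEquiv.apply_symm_apply, this]
  rw [h4] at h3
  have h5 := h3.trans (card_dvd hF')
  have h6 : Nat.card (Cfsg.GU 2 F 3) = 96 := by
    rw [Cfsg.Agent.S0277.result hF' 2, Finset.prod_range_succ, Finset.prod_range_one, if_pos (by decide), if_neg (by decide)]
    norm_num
  rw [h6] at h5
  norm_num at h5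

end Cfsg.Agent.H351.OE.UFour
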